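import Mathlib
import Cfsg.Agent.Lib.ChevInv.CentG1

/-!
# Centralisers of involutions: the Weyl group part and the forcing stages
-/

set_option autoImplicit false
set_option linter.unusedSectionVars false
set_option linter.unusedVariables false
set_option linter.unnecessarySimpa false

namespace Cfsg.Agent.Lib.ChevInv.CentG

open Cfsg Cfsg.Lie Matrix Cfsg.Agent.Lib.Chev Cfsg.Agent.Lib.Chev.Full Cfsg.Agent.Lib.Chev.Tri
open Cfsg.Agent.Lib.ChevAut.LongRoot Cfsg.Agent.Lib.ChevAut.RootCent Cfsg.Agent.Lib.ChevAut.ParabFit Equiv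
open Cfsg.Agent.Lib.ChevInv

variable {T : Tabs} {X : Extra} {R : RootTab} {D : ChevalleyDatum} (hF : Full T X R D)
variable {F : Type*} [Field F]

/-- A permutation of the roots as a function on the natural numbers. -/
def appP (σ : Perm (Fin D.nroots)) (r : ℕ) : ℕ := if h : r < D.nroots then (σ ⟨r, h⟩ : Fin D.nroots) else r

theorem appP_of_lt (σ : Perm (Fin D.nroots)) {r : ℕ} (h : r < D.nroots) : appP σ r = (σ ⟨r, h⟩ : Fin D.nroots) := by
  simp [appP, h]

/-- A functional given by a list of coefficients. -/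
noncomputable def linL (R : RootTab) (D : ChevalleyDatum) (f : List ℤ) (x : ℕ) : ℤ :=
  sumZ D.rank (fun j => f.getD j 0 * R.rcAt x j)

theorem linL_eq (f : List ℤ) (x : ℕ) : linL R D f x = R.lin D.rank (fun j => f.getD j 0) x := by
  unfold linL RootTab.lin
  rw [sumZ_eq]

section part

include hF

/-- The images of a list of roots under all the elements of the Weyl group lie in a table. -/
theorem tab_mem {Rs Sm : List ℕ} {Om : List (List ℕ × List ℕ)} (hRs : ∀ r ∈ Rs, r < D.nroots) (hSm : ∀ r ∈ Sm, r < D.nroots)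
    (h0 : (Rs, Sm) ∈ Om) (h1 : ∀ p ∈ Om, ∀ i < D.rank, (p.1.map (X.wf i), p.2.map (X.wf i)) ∈ Om)
    {σ : Perm (Fin D.nroots)} (hσ : σ ∈ hF.Wk Set.univ) : (Rs.map (appP σ), Sm.map (appP σ)) ∈ Om := by
  refine hF.Wk_induction_left (J := Set.univ) (p := fun σ => (Rs.map (appP σ), Sm.map (appP σ)) ∈ Om) ?_ ?_ σ hσ
  · have e : ∀ L : List ℕ, (∀ r ∈ L, r < D.nroots) → L.map (appP (1 : Perm (Fin D.nroots))) = L := by
      intro L hL
      conv_rhs => rw [← List.map_id L]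
      apply List.map_congr_left
      intro r hr
      rw [appP_of_lt _ (hL r hr)]
      rfl
    rw [e Rs hRs, e Sm hSm]
    exact h0
  · rintro σ j hj - ih
    have e : ∀ L : List ℕ, (∀ r ∈ L, r < D.nroots) →
        L.map (appP (hF.wPerm hj * σ)) = (L.map (appP σ)).map (X.wf j) := by
      intro L hL
      rw [List.map_map]
      apply List.map_congr_left
      intro r hr
      simp only [Function.comp]
      rw [appP_of_lt _ (hL r hr), appP_of_lt _ (hL r hr), Perm.mul_apply, hF.wPerm_apply]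
    rw [e Rs hRs, e Sm hSm]
    exact h1 _ ih j hj

/-- Elements of `N` fixing a list of roots, in the parabolic. -/
theorem stab_parabolic {V J : List ℕ} (hVn : ∀ r ∈ V, r < D.nroots)
    (hwf : ∀ j ∈ J, j < D.rank ∧ ∀ r ∈ V, X.wf j r = r)
    (hneg : ∀ σ ∈ hF.Wk Set.univ, (∀ r ∈ V, appP σ r = r) → ∀ i < D.rank, i ∉ J → R.N ≤ appP σ (D.simple i)) :
    ∀ (k : ℕ) (n : ↥(D.monomialSubgroup F)), invF R D (hF.rhoN F n) = k →
      (∀ r ∈ V, appP (hF.rhoN F n) r = r) → n.1 ∈ D.parabolicSubgroup F {j | j ∈ J} := by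
  intro k
  induction k with
  | zero =>
    intro n hn _
    have h1 := hF.mem_diagonal_of_rhoN_eq_one (hF.eq_one_of_invF (hF.rhoN_mem_Wk n) hn)
    exact hF.borel_le_parabolic _ (Subgroup.mem_sup_right h1)
  | succ k ih =>
    intro n hn hfix
    obtain ⟨i, hi, -, hne⟩ := hF.exists_simple_neg (hF.rhoN_mem_Wk n) (by omega)
    have h1 := (hF.invF_mul (hF.rhoN_mem_Wk n) hi).2 hne
    have hiJ : i ∈ J := by
      by_contra hcon
      have h2 := hneg _ (hF.rhoN_mem_Wk n) hfix i hi hcon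
      rw [appP_of_lt _ (hF.simple_lt hi)] at h2
      omega
    let n₂ : ↥(D.monomialSubgroup F) := n * (hF.nN hi)⁻¹
    have hsq : hF.rhoN F n₂ = hF.rhoN F n * hF.wPerm hi := by
      rw [map_mul, map_inv, hF.rhoN_nN, hF.wPerm_inv]
    have hfix2 : ∀ r ∈ V, appP (hF.rhoN F n₂) r = r := by
      intro r hr
      rw [hsq, appP_of_lt _ (hVn r hr), Perm.mul_apply]
      have h3 : hF.wPerm hi ⟨r, hVn r hr⟩ = ⟨r, hVn r hr⟩ := Fin.ext ((hwf i hiJ).2 r hr)
      rw [h3, ← appP_of_lt _ (hVn r hr)]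
      exact hfix r hr
    have h2 := ih n₂ (by rw [hsq]; omega) hfix2
    have h4 : n.1 = n₂.1 * hF.nS i := by
      show n.1 = n.1 * (hF.nS i)⁻¹ * hF.nS i
      group
    rw [h4]
    exact Subgroup.mul_mem _ h2 (hF.nS_mem_parabolic hi hiJ)

/-- Moving an element of a subgroup past an element of its normalizer. -/
theorem force_move {G : Type*} [Group G] {N : Subgroup G} {y e w₁ : G} (hy : y ∈ Subgroup.normalizer (N : Set G))
    (he : e ∈ Subgroup.normalizer (N : Set G)) (hw₁ : w₁ ∈ N) : ∃ w ∈ N, w₁ * y * e = y * e * w := by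
  have h1 : y⁻¹ * w₁ * y ∈ N := by
    have := (Subgroup.mem_set_normalizer_iff.1 (Subgroup.inv_mem _ hy) w₁).1 hw₁
    simpa using this
  have h3 : e⁻¹ * (y⁻¹ * w₁ * y) * e ∈ N := by
    have := (Subgroup.mem_set_normalizer_iff.1 (Subgroup.inv_mem _ he) _).1 h1
    simpa using this
  refine ⟨_, h3, ?_⟩
  group

/-- The conjugate by `z` of an ordered product, the target root being in the support. -/
theorem force_aux2 {Sup K₀ : ℕ → Prop} {z : GL D.Idx F} {s m : ℕ} (hsn : s < D.nroots)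
    (hm : ∀ b : F, hF.c.xG m b ∈ Subgroup.normalizer (rootClosure D F K₀ : Set (GL D.Idx F)))
    (hS : ∀ y ∈ rootClosure D F Sup, y ∈ Subgroup.normalizer (rootClosure D F K₀ : Set (GL D.Idx F)))
    (hcen : ∀ y ∈ rootClosure D F Sup, ∀ b : F, ∃ w ∈ rootClosure D F K₀, y * hF.c.xG m b * y⁻¹ = hF.c.xG m b * w)
    (hz1 : ∀ q, Sup q → q ≠ s → ∀ t : F, ∃ w ∈ rootClosure D F K₀, z * hF.c.xG q t * z⁻¹ = hF.c.xG q t * w)
    (hz2 : ∀ t : F, ∃ w ∈ rootClosure D F K₀, z * hF.c.xG s t * z⁻¹ = hF.c.xG s t * (hF.c.xG m t * w))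
    {τ : ℕ → F} : ∀ (n k : ℕ), k + n = D.nroots → (∀ q, k ≤ q → q < D.nroots → τ q ≠ 0 → Sup q) →
      ∃ w ∈ rootClosure D F K₀, z * hF.ordW k τ * z⁻¹ =
        hF.ordW k τ * (hF.c.xG m (if k ≤ s then τ s else 0) * w) := by
  intro n
  induction n with
  | zero =>
    intro k hk _
    refine ⟨1, Subgroup.one_mem _, ?_⟩
    have h1 : ¬ k ≤ s := by omega
    rw [hF.ordW_of_ge (by omega), if_neg h1, hF.c.xG_zero]
    group
  | succ n ih =>
    intro k hk hq
    have hkn : k < D.nroots := by omega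
    obtain ⟨wp, hwp, he⟩ := ih (k + 1) (by omega) (fun q h1 h2 h3 => hq q (by omega) h2 h3)
    have hyp : hF.ordW (k + 1) τ ∈ rootClosure D F Sup :=
      ordW_mem_closure hF (fun r h1 h2 h3 => hq r (by omega) h2 h3)
    set yp := hF.ordW (k + 1) τ with hy
    rw [hF.ordW_succ hkn, ← hy]
    by_cases hks : k = s
    · subst hks
      rw [if_neg (by omega)] at he
      rw [if_pos le_rfl]
      rw [hF.c.xG_zero, one_mul] at he
      obtain ⟨w₁, hw₁, h1⟩ := hz2 (τ k)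
      obtain ⟨w₂, hw₂, h2⟩ := hcen yp⁻¹ (Subgroup.inv_mem _ hyp) (τ k)
      have h3 : yp⁻¹ * w₁ * yp ∈ rootClosure D F K₀ := by
        have := (Subgroup.mem_set_normalizer_iff.1 (hS _ (Subgroup.inv_mem _ hyp)) w₁).1 hw₁
        simpa using this
      refine ⟨w₂ * (yp⁻¹ * w₁ * yp) * wp, Subgroup.mul_mem _ (Subgroup.mul_mem _ hw₂ h3) hwp, ?_⟩
      have h4 : hF.c.xG m (τ k) * yp = yp * (hF.c.xG m (τ k) * w₂) := by
        rw [← h2]
        group
      calc z * (hF.c.xG k (τ k) * yp) * z⁻¹ = (z * hF.c.xG k (τ k) * z⁻¹) * (z * yp * z⁻¹) := by group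
        _ = hF.c.xG k (τ k) * (hF.c.xG m (τ k) * w₁ * (yp * wp)) := by
          rw [h1, he]
          group
        _ = hF.c.xG k (τ k) * (hF.c.xG m (τ k) * yp * (yp⁻¹ * w₁ * yp) * wp) := by group
        _ = hF.c.xG k (τ k) * (yp * (hF.c.xG m (τ k) * w₂) * (yp⁻¹ * w₁ * yp) * wp) := by rw [h4]
        _ = _ := by group
    · have hiff : (k + 1 ≤ s) ↔ k ≤ s := by omega
      simp only [hiff] at he
      by_cases h0 : τ k = 0
      · rw [h0, hF.c.xG_zero, one_mul]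
        exact ⟨wp, hwp, he⟩
      · obtain ⟨w₁, hw₁, h1⟩ := hz1 k (hq k le_rfl hkn h0) hks (τ k)
        set e := hF.c.xG m (if k ≤ s then τ s else 0) with hE
        obtain ⟨w', hw', h2⟩ := force_move hF (hS _ hyp) (hm (if k ≤ s then τ s else 0)) hw₁
        rw [← hE] at h2
        refine ⟨w' * wp, Subgroup.mul_mem _ hw' hwp, ?_⟩
        calc z * (hF.c.xG k (τ k) * yp) * z⁻¹ = (z * hF.c.xG k (τ k) * z⁻¹) * (z * yp * z⁻¹) := by group
          _ = hF.c.xG k (τ k) * (w₁ * yp * e) * wp := by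
            rw [h1, he]
            group
          _ = _ := by
            rw [h2]
            group

variable [CharP F 2]

/-- Conjugation of a root element by a product of root elements. -/
theorem z_conj1 {K₀ : ℕ → Prop} {q : ℕ} (hq : R.N ≤ q ∧ q < D.nroots) {V : List ℕ}
    (hV : ∀ r ∈ V, R.N ≤ r ∧ r < D.nroots)
    (hn : ∀ r ∈ V, ∀ u : F, hF.c.xG r u ∈ Subgroup.normalizer (rootClosure D F K₀ : Set (GL D.Idx F)))
    (hK : ∀ r ∈ V, q ≠ r → ∀ c ∈ oddT D r q, K₀ c.1) (t : F) :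
    ∃ w ∈ rootClosure D F K₀, xL hF F V * hF.c.xG q t * (xL hF F V)⁻¹ = hF.c.xG q t * w := by
  induction V with
  | nil =>
    refine ⟨1, Subgroup.one_mem _, ?_⟩
    rw [xL_nil hF]
    group
  | cons a V ih =>
    obtain ⟨w', hw', h1⟩ := ih (fun r hr => hV r (List.mem_cons_of_mem _ hr))
      (fun r hr => hn r (List.mem_cons_of_mem _ hr)) (fun r hr => hK r (List.mem_cons_of_mem _ hr))
    have hna := (Subgroup.mem_set_normalizer_iff.1 (hn a List.mem_cons_self 1) w').1 hw'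
    have haN := hV a List.mem_cons_self
    rw [xL_cons hF]
    by_cases hqa : q = a
    · subst hqa
      refine ⟨_, hna, ?_⟩
      calc hF.c.xG q 1 * xL hF F V * hF.c.xG q t * (hF.c.xG q 1 * xL hF F V)⁻¹
          = hF.c.xG q 1 * (xL hF F V * hF.c.xG q t * (xL hF F V)⁻¹) * (hF.c.xG q 1)⁻¹ := by group
        _ = hF.c.xG q 1 * hF.c.xG q t * (hF.c.xG q 1)⁻¹ * (hF.c.xG q 1 * w' * (hF.c.xG q 1)⁻¹) := by
          rw [h1]
          group
        _ = _ := by
          congr 1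
          rw [hF.c.xG_inv, hF.c.xG_add, hF.c.xG_add]
          congr 1
          ring
    · have h2 := conj_odd hF (F := F) haN.2 hq.2 hqa (neg_ne_of_pos hF haN.2 haN.1 hq.1) 1 t
      have h3 : hF.c.wordG (oddW D F a q 1 t) ∈ rootClosure D F K₀ := by
        apply hF.c.wordG_mem
        intro p hp
        simp only [oddW, List.mem_map] at hp
        obtain ⟨c, hc, rfl⟩ := hp
        exact hF.xG_mem_rootClosure (hK a List.mem_cons_self hqa c hc) _
      refine ⟨_, Subgroup.mul_mem _ h3 hna, ?_⟩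
      calc hF.c.xG a 1 * xL hF F V * hF.c.xG q t * (hF.c.xG a 1 * xL hF F V)⁻¹
          = hF.c.xG a 1 * (xL hF F V * hF.c.xG q t * (xL hF F V)⁻¹) * (hF.c.xG a 1)⁻¹ := by group
        _ = hF.c.xG a 1 * hF.c.xG q t * (hF.c.xG a 1)⁻¹ * (hF.c.xG a 1 * w' * (hF.c.xG a 1)⁻¹) := by
          rw [h1]
          group
        _ = _ := by
          rw [h2]
          group

/-- Conjugation of the source root element by a product of root elements. -/
theorem z_conj2 {K₀ : ℕ → Prop} {s m rs : ℕ} (hs : R.N ≤ s ∧ s < D.nroots) {c₀ : ℤ} {j₀ : ℕ}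
    {rest : List (ℕ × ℤ × ℕ × ℕ)} (hhead : oddT D rs s = (m, c₀, j₀, 1) :: rest) (hrest : ∀ c ∈ rest, K₀ c.1)
    (hm : ∀ b : F, hF.c.xG m b ∈ Subgroup.normalizer (rootClosure D F K₀ : Set (GL D.Idx F)))
    {V : List ℕ} (hnd : V.Nodup)
    (hV : ∀ r ∈ V, R.N ≤ r ∧ r < D.nroots)
    (hsV : ∀ r ∈ V, s ≠ r)
    (hn : ∀ r ∈ V, ∀ u : F, hF.c.xG r u ∈ Subgroup.normalizer (rootClosure D F K₀ : Set (GL D.Idx F)))
    (hcen : ∀ r ∈ V, ∀ b : F, ∃ w ∈ rootClosure D F K₀, hF.c.xG r 1 * hF.c.xG m b * (hF.c.xG r 1)⁻¹ = hF.c.xG m b * w)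
    (hK : ∀ r ∈ V, r ≠ rs → ∀ c ∈ oddT D r s, K₀ c.1) (t : F) :
    ∃ w ∈ rootClosure D F K₀, xL hF F V * hF.c.xG s t * (xL hF F V)⁻¹ =
      hF.c.xG s t * (hF.c.xG m (if rs ∈ V then t else 0) * w) := by
  classical
  induction V with
  | nil =>
    refine ⟨1, Subgroup.one_mem _, ?_⟩
    rw [xL_nil hF]
    simp [hF.c.xG_zero]
  | cons a V ih =>
    have hnd' := (List.nodup_cons.1 hnd)
    obtain ⟨w', hw', h1⟩ := ih hnd'.2 (fun r hr => hV r (List.mem_cons_of_mem _ hr))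
      (fun r hr => hsV r (List.mem_cons_of_mem _ hr))
      (fun r hr => hn r (List.mem_cons_of_mem _ hr)) (fun r hr => hcen r (List.mem_cons_of_mem _ hr))
      (fun r hr => hK r (List.mem_cons_of_mem _ hr))
    have hna := (Subgroup.mem_set_normalizer_iff.1 (hn a List.mem_cons_self 1) w').1 hw'
    have haN := hV a List.mem_cons_self
    have h2 := conj_odd hF (F := F) haN.2 hs.2 (hsV a List.mem_cons_self) (neg_ne_of_pos hF haN.2 haN.1 hs.1) 1 t
    rw [xL_cons hF]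
    by_cases hars : a = rs
    · subst hars
      have h0 : a ∉ V := hnd'.1
      rw [if_neg h0, hF.c.xG_zero, one_mul] at h1
      rw [if_pos List.mem_cons_self]
      have h3 : hF.c.wordG (oddW D F a s 1 t) = hF.c.xG m t * hF.c.wordG (rest.map fun c => (c.1, (1 : F) ^ c.2.2.1 * t ^ c.2.2.2)) := by
        simp [oddW, hhead, Checks.wordG_cons]
      have h4 : hF.c.wordG (rest.map fun c => (c.1, (1 : F) ^ c.2.2.1 * t ^ c.2.2.2)) ∈ rootClosure D F K₀ := by
        apply hF.c.wordG_mem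
        intro p hp
        simp only [List.mem_map] at hp
        obtain ⟨c, hc, rfl⟩ := hp
        exact hF.xG_mem_rootClosure (hrest c hc) _
      refine ⟨_, Subgroup.mul_mem _ h4 hna, ?_⟩
      calc hF.c.xG a 1 * xL hF F V * hF.c.xG s t * (hF.c.xG a 1 * xL hF F V)⁻¹
          = hF.c.xG a 1 * (xL hF F V * hF.c.xG s t * (xL hF F V)⁻¹) * (hF.c.xG a 1)⁻¹ := by group
        _ = hF.c.xG a 1 * hF.c.xG s t * (hF.c.xG a 1)⁻¹ * (hF.c.xG a 1 * w' * (hF.c.xG a 1)⁻¹) := by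
          rw [h1]
          group
        _ = _ := by
          rw [h2, h3]
          group
    · have h3 : hF.c.wordG (oddW D F a s 1 t) ∈ rootClosure D F K₀ := by
        apply hF.c.wordG_mem
        intro p hp
        simp only [oddW, List.mem_map] at hp
        obtain ⟨c, hc, rfl⟩ := hp
        exact hF.xG_mem_rootClosure (hK a List.mem_cons_self hars c hc) _
      have hiff : (rs ∈ a :: V) ↔ rs ∈ V := by
        simp only [List.mem_cons]
        constructor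
        · rintro (h | h)
          · exact absurd h.symm hars
          · exact h
        · exact Or.inr
      simp only [hiff]
      set b : F := if rs ∈ V then t else 0 with hb
      obtain ⟨w₂, hw₂, h5⟩ := hcen a List.mem_cons_self b
      have h6 : (hF.c.xG m b)⁻¹ * hF.c.wordG (oddW D F a s 1 t) * hF.c.xG m b ∈ rootClosure D F K₀ := by
        have := (Subgroup.mem_set_normalizer_iff.1 (Subgroup.inv_mem _ (hm b)) _).1 h3
        simpa using this
      refine ⟨_, Subgroup.mul_mem _ (Subgroup.mul_mem _ h6 hw₂) hna, ?_⟩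
      calc hF.c.xG a 1 * xL hF F V * hF.c.xG s t * (hF.c.xG a 1 * xL hF F V)⁻¹
          = hF.c.xG a 1 * (xL hF F V * hF.c.xG s t * (xL hF F V)⁻¹) * (hF.c.xG a 1)⁻¹ := by group
        _ = (hF.c.xG a 1 * hF.c.xG s t * (hF.c.xG a 1)⁻¹) * (hF.c.xG a 1 * hF.c.xG m b * (hF.c.xG a 1)⁻¹) *
              (hF.c.xG a 1 * w' * (hF.c.xG a 1)⁻¹) := by
          rw [h1]
          group
        _ = _ := by
          rw [h2, h5]
          group

/-- The root subgroups of the support normalise the closure, and act trivially on the coset of the target. -/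
theorem sup_norm {Sup K₀ : ℕ → Prop} (hSup : ∀ q, Sup q → R.N ≤ q ∧ q < D.nroots) (hK0 : ∀ k, K₀ k → R.N ≤ k ∧ k < D.nroots)
    (hb : ∀ q, Sup q → ∀ k, K₀ k → k ≠ q → ∀ c ∈ oddT D q k, K₀ c.1) :
    ∀ y ∈ rootClosure D F Sup, y ∈ Subgroup.normalizer (rootClosure D F K₀ : Set (GL D.Idx F)) := by
  have : rootClosure D F Sup ≤ Subgroup.normalizer (rootClosure D F K₀ : Set (GL D.Idx F)) := by
    unfold rootClosure
    rw [Subgroup.closure_le]
    rintro g ⟨q, t, hq, hg⟩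
    rw [SetLike.mem_coe, hF.c.eq_xG hg]
    have hqN := hSup q hq
    exact xG_mem_normalizer2 hF hqN.2 K₀ (fun s hs => ⟨(hK0 s hs).2, neg_ne_of_pos hF hqN.2 hqN.1 (hK0 s hs).1⟩)
      (fun s hs hne c hc => hb q hq s hs hne c hc) t
  exact this

theorem sup_cen {Sup K₀ : ℕ → Prop} {m : ℕ} (hmN : R.N ≤ m ∧ m < D.nroots)
    (hSup : ∀ q, Sup q → R.N ≤ q ∧ q < D.nroots)
    (hn : ∀ y ∈ rootClosure D F Sup, y ∈ Subgroup.normalizer (rootClosure D F K₀ : Set (GL D.Idx F)))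
    (hc : ∀ q, Sup q → q ≠ m → ∀ c ∈ oddT D q m, K₀ c.1) (b : F) :
    ∀ y ∈ rootClosure D F Sup, ∃ w ∈ rootClosure D F K₀, y * hF.c.xG m b * y⁻¹ = hF.c.xG m b * w := by
  apply closure_coset hn
  rintro g ⟨q, t, hq, hg⟩
  rw [hF.c.eq_xG hg]
  have hqN := hSup q hq
  by_cases hqm : q = m
  · subst hqm
    refine ⟨1, Subgroup.one_mem _, ?_⟩
    rw [hF.c.xG_inv, hF.c.xG_add, hF.c.xG_add, mul_one]
    congr 1
    ring
  · have h2 := conj_odd hF (F := F) hqN.2 hmN.2 (Ne.symm hqm) (neg_ne_of_pos hF hqN.2 hqN.1 hmN.1) t b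
    refine ⟨_, ?_, h2⟩
    apply hF.c.wordG_mem
    intro p hp
    simp only [oddW, List.mem_map] at hp
    obtain ⟨c, hc', rfl⟩ := hp
    exact hF.xG_mem_rootClosure (hc q hq hqm c hc') _

end part

/-- The head of the list of odd commutator terms. -/
def headOK (L : List (ℕ × ℤ × ℕ × ℕ)) (m : ℕ) (K0 : List ℕ) : Bool :=
  match L with
  | [] => false
  | e :: rest => (e.1 == m) && (e.2.2.2 == 1) && rest.all fun c => decide (c.1 ∈ K0)

theorem headOK_spec {L : List (ℕ × ℤ × ℕ × ℕ)} {m : ℕ} {K0 : List ℕ} (h : headOK L m K0 = true) :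
    ∃ (c₀ : ℤ) (j₀ : ℕ) (rest : List (ℕ × ℤ × ℕ × ℕ)), L = (m, c₀, j₀, 1) :: rest ∧ ∀ c ∈ rest, c.1 ∈ K0 := by
  cases L with
  | nil => simp [headOK] at h
  | cons e rest =>
    obtain ⟨a, c, j, b⟩ := e
    simp only [headOK, Bool.and_eq_true, beq_iff_eq, List.all_eq_true, decide_eq_true_eq] at h
    obtain ⟨⟨h1, h2⟩, h3⟩ := h
    subst h1
    subst h2
    exact ⟨c, j, rest, rfl, h3⟩

/-- The conditions for one forcing stage. -/
def StageOK (R : RootTab) (D : ChevalleyDatum) (V prev : List ℕ) (s m rs : ℕ) (K0 : List ℕ) : Prop :=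
  (R.N ≤ m ∧ m < D.nroots) ∧ m ∉ K0 ∧ (∀ k ∈ K0, R.N ≤ k ∧ k < D.nroots) ∧
  (∀ a ∈ K0, ∀ b ∈ K0, a ≠ b → ∀ c ∈ oddT D a b, c.1 ∈ K0) ∧
  (∀ q ∈ List.range' R.N (D.nroots - R.N), q ∉ prev → ∀ k ∈ K0, q ≠ k → ∀ c ∈ oddT D q k, c.1 ∈ K0) ∧
  (∀ k ∈ K0, m ≠ k → ∀ c ∈ oddT D m k, c.1 ∈ K0) ∧
  (∀ q ∈ List.range' R.N (D.nroots - R.N), q ∉ prev → q ≠ m → ∀ c ∈ oddT D q m, c.1 ∈ K0) ∧
  (∀ q ∈ List.range' R.N (D.nroots - R.N), q ∉ prev → q ≠ s → ∀ r ∈ V, q ≠ r → ∀ c ∈ oddT D r q, c.1 ∈ K0) ∧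
  (∀ r ∈ V, r ∉ prev) ∧ (R.N ≤ s ∧ s < D.nroots) ∧ s ∉ V ∧ rs ∈ V ∧
  (∀ r ∈ V, r ≠ rs → ∀ c ∈ oddT D r s, c.1 ∈ K0) ∧
  headOK (oddT D rs s) m K0 = true

set_option synthInstance.maxSize 10000 in
set_option synthInstance.maxHeartbeats 2000000 in
instance decStageOK (R : RootTab) (D : ChevalleyDatum) (V prev : List ℕ) (s m rs : ℕ) (K0 : List ℕ) :
    Decidable (StageOK R D V prev s m rs K0) := by
  unfold StageOK
  infer_instance

/-- The conditions for the list of stages. -/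
def KillOK (R : RootTab) (D : ChevalleyDatum) (V : List ℕ) : List ℕ → List (ℕ × ℕ × ℕ) → Prop
  | _, [] => True
  | prev, (s, m, rs) :: KL => StageOK R D V prev s m rs (KL.map fun p => p.2.1) ∧ KillOK R D V (s :: prev) KL

section part2

include hF

variable [CharP F 2]

/-- The coordinates at the sources of the stages vanish. -/
theorem kill_all {V : List ℕ} (hVnd : V.Nodup) (hV : ∀ r ∈ V, R.N ≤ r ∧ r < D.nroots) :
    ∀ (KL : List (ℕ × ℕ × ℕ)) (prev : List ℕ), KillOK R D V prev KL → ∀ σ : ℕ → F,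
      (∀ q, R.N ≤ q → q < D.nroots → σ q ≠ 0 → q ∉ prev) →
      xL hF F V * hF.ordW R.N σ * (xL hF F V)⁻¹ = hF.ordW R.N σ → ∀ p ∈ KL, σ p.1 = 0 := by
  intro KL
  induction KL with
  | nil =>
    intro prev _ σ _ _ p hp
    simp at hp
  | cons e KL ih =>
    obtain ⟨s, m, rs⟩ := e
    intro prev hOK σ hσ hc
    obtain ⟨hOK1, hOK2⟩ := hOK
    set K0 := KL.map (fun p => p.2.1) with hK0
    obtain ⟨hmN, hmK, hKN, hcl, hb, hdm, hcn, hz1', hVprev, hsN, hsV, hrs, hKs, hhd⟩ := hOK1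
    obtain ⟨c₀, j₀, rest, hhead, hrest⟩ := headOK_spec hhd
    let K₀ : ℕ → Prop := fun k => k ∈ K0
    let Sup : ℕ → Prop := fun q => (R.N ≤ q ∧ q < D.nroots) ∧ q ∉ prev
    have hmemP : ∀ q, R.N ≤ q → q < D.nroots → q ∈ List.range' R.N (D.nroots - R.N) := by
      intro q h1 h2
      rw [List.mem_range'_1]
      omega
    have hSupN : ∀ q, Sup q → R.N ≤ q ∧ q < D.nroots := fun q hq => hq.1
    have hnS : ∀ y ∈ rootClosure D F Sup, y ∈ Subgroup.normalizer (rootClosure D F K₀ : Set (GL D.Idx F)) :=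
      sup_norm hF hSupN hKN (fun q hq k hk hne c hc' => hb q (hmemP q hq.1.1 hq.1.2) hq.2 k hk (Ne.symm hne) c hc')
    have hcenS : ∀ y ∈ rootClosure D F Sup, ∀ b : F, ∃ w ∈ rootClosure D F K₀, y * hF.c.xG m b * y⁻¹ = hF.c.xG m b * w :=
      fun y hy b => sup_cen hF hmN hSupN hnS (fun q hq hne c hc' => hcn q (hmemP q hq.1.1 hq.1.2) hq.2 hne c hc') b y hy
    have hVS : ∀ r ∈ V, Sup r := fun r hr => ⟨hV r hr, hVprev r hr⟩
    have hnV : ∀ r ∈ V, ∀ u : F, hF.c.xG r u ∈ Subgroup.normalizer (rootClosure D F K₀ : Set (GL D.Idx F)) :=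
      fun r hr u => hnS _ (hF.xG_mem_rootClosure (hVS r hr) u)
    have hcV : ∀ r ∈ V, ∀ b : F, ∃ w ∈ rootClosure D F K₀, hF.c.xG r 1 * hF.c.xG m b * (hF.c.xG r 1)⁻¹ = hF.c.xG m b * w :=
      fun r hr b => hcenS _ (hF.xG_mem_rootClosure (hVS r hr) 1) b
    have hm' : ∀ b : F, hF.c.xG m b ∈ Subgroup.normalizer (rootClosure D F K₀ : Set (GL D.Idx F)) := by
      intro b
      exact xG_mem_normalizer2 hF hmN.2 K₀ (fun s hs => ⟨(hKN s hs).2, neg_ne_of_pos hF hmN.2 hmN.1 (hKN s hs).1⟩)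
        (fun s hs hne c hc' => hdm s hs (Ne.symm hne) c hc') b
    have hz1 : ∀ q, Sup q → q ≠ s → ∀ t : F, ∃ w ∈ rootClosure D F K₀, xL hF F V * hF.c.xG q t * (xL hF F V)⁻¹ = hF.c.xG q t * w := by
      intro q hq hqs t
      exact z_conj1 hF hq.1 hV hnV (fun r hr hne c hc' => hz1' q (hmemP q hq.1.1 hq.1.2) hq.2 hqs r hr hne c hc') t
    have hz2 : ∀ t : F, ∃ w ∈ rootClosure D F K₀, xL hF F V * hF.c.xG s t * (xL hF F V)⁻¹ = hF.c.xG s t * (hF.c.xG m t * w) := by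
      intro t
      obtain ⟨w, hw, h⟩ := z_conj2 hF hsN hhead hrest hm' hVnd hV (fun r hr h => hsV (h ▸ hr)) hnV hcV hKs t
      rw [if_pos hrs] at h
      exact ⟨w, hw, h⟩
    obtain ⟨w, hw, he⟩ := force_aux2 hF (τ := σ) hsN.2 hm' hnS hcenS hz1 hz2 (D.nroots - R.N) R.N
      (by have := hsN; omega) (fun q h1 h2 h3 => ⟨⟨h1, h2⟩, hσ q h1 h2 h3⟩)
    rw [if_pos hsN.1, hc] at he
    have h1 : hF.c.xG m (σ s) * w = 1 := by
      have := mul_left_cancel (a := hF.ordW R.N σ) (b := 1) (c := hF.c.xG m (σ s) * w) (by rw [mul_one]; exact he)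
      exact this.symm
    have h2 : hF.c.xG m (σ s) ∈ rootClosure D F K₀ := by
      have h3 : hF.c.xG m (σ s) = w⁻¹ := eq_inv_of_mul_eq_one_left h1
      rw [h3]
      exact Subgroup.inv_mem _ hw
    have hclosed : ClosedQ R D K₀ := ⟨fun s hs => hKN s hs, fun a b ha hb' hne c hc' => hcl a ha b hb' hne c hc'⟩
    have h0 : σ s = 0 := xG_not_mem_closed hF hclosed hmN.1 hmN.2 hmK h2
    intro p hp
    rcases List.mem_cons.1 hp with rfl | hp
    · exact h0
    · refine ih (s :: prev) hOK2 σ ?_ hc p hp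
      intro q h3 h4 h5
      rw [List.mem_cons]
      rintro (rfl | h6)
      · exact h5 h0
      · exact hσ q h3 h4 h5 h6

end part2

end Cfsg.Agent.Lib.ChevInv.CentG
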