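import Mathlib
import Cfsg.Agent.Lib.ChevInv.CentG2

/-!
# Centralisers of involutions: the main theorem, from finitely many table conditions
-/

set_option autoImplicit false
set_option linter.unusedSectionVars false
set_option linter.unusedVariables false
set_option linter.unnecessarySimpa false

namespace Cfsg.Agent.Lib.ChevInv.CentG

open Cfsg Cfsg.Lie Matrix Cfsg.Agent.Lib.Chev Cfsg.Agent.Lib.Chev.Full Cfsg.Agent.Lib.Chev.Tri
open Cfsg.Agent.Lib.ChevAut.LongRoot Cfsg.Agent.Lib.ChevAut.RootCent Cfsg.Agent.Lib.ChevAut.ParabFit Equiv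
open Cfsg.Agent.Lib.ChevInv

variable {T : Tabs} {X : Extra} {R : RootTab} {D : ChevalleyDatum} (hF : Full T X R D)
variable {F : Type*} [Field F]

/-- The roots of the centraliser. -/
def QC (R : RootTab) (D : ChevalleyDatum) (J K : List ℕ) (r : ℕ) : Prop :=
  ((R.N ≤ r ∧ r < D.nroots) ∧ r ∉ K) ∨ ∃ j ∈ J, r = D.neg (D.simple j)

/-- The table conditions. -/
structure CentTab (R : RootTab) (D : ChevalleyDatum) (X : Extra) (V A J : List ℕ) (KL : List (ℕ × ℕ × ℕ))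
    (Fn : List (List ℤ × ℕ)) (Bn : List (ℕ × List ℤ)) (Om : List (List ℕ × List ℕ))
    (dual : List (ℕ × List (ℕ × ℤ))) : Prop where
  hN : R.N ≤ D.nroots
  hVnd : V.Nodup
  hVA : ∀ r ∈ V, r ∈ A
  hAP : ∀ r ∈ A, R.N ≤ r ∧ r < D.nroots
  hJ : ∀ j ∈ J, j < D.rank ∧ D.simple j ∉ KL.map Prod.fst
  hU : ∀ s ∈ List.range' R.N (D.nroots - R.N), ∀ a ∈ A, s ≠ a → ∀ c ∈ oddT D s a, c.1 ∈ A ∧ c.1 ∉ V
  hYP : ∀ q ∈ List.range' R.N (D.nroots - R.N), q ∉ KL.map Prod.fst → ∀ r ∈ V, q ≠ r → oddT D q r = []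
  hYN : ∀ j ∈ J, ∀ r ∈ V, r ≠ D.neg (D.simple j) ∧ r ≠ D.neg (D.neg (D.simple j)) ∧ oddT D (D.neg (D.simple j)) r = []
  hwf : ∀ j ∈ J, ∀ r ∈ V, X.wf j r = r
  hkill : KillOK R D V [] KL
  hFn : ∀ p ∈ Fn, ∀ s ∈ A, (p.2 : ℤ) + 1 ≤ linL R D p.1 s
  hBn : ∀ p ∈ Bn, 0 < linL R D p.2 p.1 ∧ ∀ s ∈ A, s ≠ p.1 → linL R D p.2 p.1 < linL R D p.2 s
  hBV : ∀ r ∈ V, r ∈ Bn.map Prod.fst
  hOm0 : (V, (List.range D.rank).map D.simple) ∈ Om
  hOm1 : ∀ p ∈ Om, ∀ i < D.rank, (p.1.map (X.wf i), p.2.map (X.wf i)) ∈ Om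
  hfix : ∀ p ∈ Om, (∀ x ∈ p.1, ∀ q ∈ Fn, (q.2 : ℤ) + 1 ≤ linL R D q.1 x) → p.1 = V
  hneg : ∀ p ∈ Om, p.1 = V → ∀ i < D.rank, i ∉ J → R.N ≤ p.2.getD i 0
  hdual : ∀ e ∈ dual, (∀ p ∈ e.2, p.1 ∈ V) ∧
    ∀ i' < D.rank, (e.2.map fun p => p.2 * D.cartan i' p.1).sum = if i' = e.1 then 1 else 0
  hdual2 : ∀ i < D.rank, i ∉ J → i ∈ dual.map Prod.fst

/-- The closure check for the table of images, in buckets, as a boolean function. -/
noncomputable def omClosedB (X : Extra) (rank : ℕ) (Om : List (List (List ℕ × List ℕ))) : Bool :=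
  Om.all fun bk => bk.all fun p => (List.range rank).all fun i =>
    (Om.getD ((p.2.map (X.wf i)).headD 0) []).contains (p.1.map (X.wf i), p.2.map (X.wf i))

theorem mem_flatten_of_getD {α : Type*} : ∀ (L : List (List α)) (k : ℕ) (x : α), x ∈ L.getD k [] → x ∈ L.flatten := by
  intro L
  induction L with
  | nil => simp
  | cons a L ih =>
    intro k x hx
    rw [List.flatten_cons, List.mem_append]
    cases k with
    | zero =>
      left
      simpa using hx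
    | succ k =>
      right
      exact ih k x (by simpa using hx)

theorem omClosed_of_B {X : Extra} {rank : ℕ} {Om : List (List (List ℕ × List ℕ))} (h : omClosedB X rank Om = true) :
    ∀ p ∈ Om.flatten, ∀ i < rank, (p.1.map (X.wf i), p.2.map (X.wf i)) ∈ Om.flatten := by
  intro p hp i hi
  obtain ⟨bk, hbk, hp'⟩ := List.mem_flatten.1 hp
  have h1 := List.all_eq_true.1 h bk hbk
  have h2 := List.all_eq_true.1 h1 p hp'
  have h3 := List.all_eq_true.1 h2 i (List.mem_range.2 hi)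
  exact mem_flatten_of_getD _ _ _ (List.contains_iff_mem.1 h3)

theorem map_eq_self' {α : Type*} {f : α → α} : ∀ {l : List α}, l.map f = l → ∀ x ∈ l, f x = x := by
  intro l
  induction l with
  | nil => simp
  | cons a l ih =>
    intro h x hx
    rw [List.map_cons, List.cons_eq_cons] at h
    rcases List.mem_cons.1 hx with rfl | hx
    · exact h.1
    · exact ih h.2 x hx

theorem chi_comb (c : Fin D.rank → Fˣ) (L : List (ℕ × ℤ)) :
    (L.map fun p => (chiT D c p.1) ^ p.2).prod =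
      ∏ i : Fin D.rank, c i ^ (L.map fun p => p.2 * D.cartan i p.1).sum := by
  induction L with
  | nil => simp
  | cons a L ih =>
    rw [List.map_cons, List.prod_cons, ih]
    unfold chiT
    rw [← Finset.prod_zpow, ← Finset.prod_mul_distrib]
    apply Finset.prod_congr rfl
    intro i _
    rw [List.map_cons, List.sum_cons, _root_.zpow_add, ← _root_.zpow_mul, mul_comm (D.cartan i a.1)]

section main

variable {V A J : List ℕ} {KL : List (ℕ × ℕ × ℕ)} {Fn : List (List ℤ × ℕ)} {Bn : List (ℕ × List ℤ)}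
  {Om : List (List ℕ × List ℕ)} {dual : List (ℕ × List (ℕ × ℤ))}
  (tab : CentTab R D X V A J KL Fn Bn Om dual)

include hF tab

theorem c_of_chi (c : Fin D.rank → Fˣ) (h : ∀ r ∈ V, chiT D c r = 1) (i : Fin D.rank) (hi : (i : ℕ) ∉ J) : c i = 1 := by
  obtain ⟨e, he, hei⟩ := List.mem_map.1 (tab.hdual2 i i.2 hi)
  obtain ⟨h1, h2⟩ := tab.hdual e he
  have h3 := chi_comb c e.2
  have h4 : (e.2.map fun p => (chiT D c p.1) ^ p.2).prod = 1 := by
    apply List.prod_eq_one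
    intro x hx
    obtain ⟨p, hp, rfl⟩ := List.mem_map.1 hx
    rw [h p.1 (h1 p hp), _root_.one_zpow]
  rw [h4] at h3
  rw [h3, Finset.prod_eq_single i]
  · rw [h2 i i.2, if_pos hei.symm, zpow_one]
  · intro b _ hb
    have : (b : ℕ) ≠ e.1 := by
      rw [hei]
      exact fun h => hb (Fin.ext h)
    rw [h2 b b.2, if_neg this, zpow_zero]
  · simp

theorem QC_lt {r : ℕ} (h : QC R D J (KL.map Prod.fst) r) : r < D.nroots := by
  rcases h with h | ⟨j, hj, rfl⟩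
  · exact h.1.2
  · exact hF.neg_lt (hF.simple_lt (tab.hJ j hj).1)

theorem mem_range' {q : ℕ} (h1 : R.N ≤ q) (h2 : q < D.nroots) : q ∈ List.range' R.N (D.nroots - R.N) := by
  rw [List.mem_range'_1]
  omega

variable [CharP F 2]

/-- Elements of the claimed centraliser commute with all the root elements involved. -/
theorem Y_comm (r : ℕ) (hr : r ∈ V) (u : F) {y : GL D.Idx F} (hy : y ∈ rootClosure D F (QC R D J (KL.map Prod.fst))) :
    y * hF.c.xG r u = hF.c.xG r u * y := by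
  have hrN := tab.hAP r (tab.hVA r hr)
  have hle : rootClosure D F (QC R D J (KL.map Prod.fst)) ≤ Subgroup.centralizer {hF.c.xG r u} := by
    unfold rootClosure
    rw [Subgroup.closure_le]
    rintro g ⟨q, t, hq, hg⟩
    rw [SetLike.mem_coe, hF.c.eq_xG hg, Subgroup.mem_centralizer_iff]
    intro h hh
    rw [Set.mem_singleton_iff] at hh
    subst hh
    rcases hq with ⟨hq, hqK⟩ | ⟨j, hj, rfl⟩
    · by_cases hqr : q = r
      · subst hqr
        rw [hF.c.xG_add, hF.c.xG_add, add_comm]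
      · exact (comm_of_oddT hF hq.2 hrN.2 (Ne.symm hqr) (neg_ne_of_pos hF hq.2 hq.1 hrN.1)
          (tab.hYP q (mem_range' hF tab hq.1 hq.2) hqK r hr hqr) t u).symm
    · obtain ⟨h1, h2, h3⟩ := tab.hYN j hj r hr
      exact (comm_of_oddT hF (hF.neg_lt (hF.simple_lt (tab.hJ j hj).1)) hrN.2 h1 h2 h3 t u).symm
  exact (Subgroup.mem_centralizer_iff.1 (hle hy) _ (Set.mem_singleton _)).symm

theorem Y_comm_list {y : GL D.Idx F} (hy : y ∈ rootClosure D F (QC R D J (KL.map Prod.fst))) (χ : ℕ → F) :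
    ∀ L : List ℕ, (∀ r ∈ L, r ∈ V) → y * hF.c.wordG (L.map fun r => (r, χ r)) = hF.c.wordG (L.map fun r => (r, χ r)) * y := by
  intro L
  induction L with
  | nil =>
    intro _
    simp [Checks.wordG_nil]
  | cons a L ih =>
    intro h
    rw [List.map_cons, Checks.wordG_cons]
    rw [← mul_assoc, Y_comm hF tab a (h a List.mem_cons_self) (χ a) hy, mul_assoc,
      ih (fun r hr => h r (List.mem_cons_of_mem _ hr)), mul_assoc]

theorem Y_pos {q : ℕ} (h1 : R.N ≤ q) (h2 : q < D.nroots) (h3 : q ∉ KL.map Prod.fst) (t : F) :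
    hF.c.xG q t ∈ rootClosure D F (QC R D J (KL.map Prod.fst)) :=
  hF.xG_mem_rootClosure (Or.inl ⟨⟨h1, h2⟩, h3⟩) t

theorem Y_simple {j : ℕ} (hj : j ∈ J) (t : F) :
    hF.c.xG (D.simple j) t ∈ rootClosure D F (QC R D J (KL.map Prod.fst)) :=
  Y_pos hF tab (hF.simple_ge (tab.hJ j hj).1) (hF.simple_lt (tab.hJ j hj).1) (tab.hJ j hj).2 t

theorem Y_neg {j : ℕ} (hj : j ∈ J) (t : F) :
    hF.c.xG (D.neg (D.simple j)) t ∈ rootClosure D F (QC R D J (KL.map Prod.fst)) :=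
  hF.xG_mem_rootClosure (Or.inr ⟨j, hj, rfl⟩) t

theorem Y_nS {j : ℕ} (hj : j ∈ J) : hF.nS (F := F) j ∈ rootClosure D F (QC R D J (KL.map Prod.fst)) := by
  unfold nS Checks.nG
  exact Subgroup.mul_mem _ (Subgroup.mul_mem _ (Y_simple hF tab hj _) (Y_neg hF tab hj _)) (Y_simple hF tab hj _)

theorem Y_hG {j : ℕ} (hj : j ∈ J) (t : F) :
    hF.c.hG (D.simple j) t ∈ rootClosure D F (QC R D J (KL.map Prod.fst)) := by
  unfold Checks.hG Checks.nG
  exact Subgroup.mul_mem _ (Subgroup.mul_mem _ (Subgroup.mul_mem _ (Y_simple hF tab hj _) (Y_neg hF tab hj _)) (Y_simple hF tab hj _))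
    (Subgroup.mul_mem _ (Subgroup.mul_mem _ (Y_simple hF tab hj _) (Y_neg hF tab hj _)) (Y_simple hF tab hj _))

/-- A torus element with trivial coordinates outside `J` lies in the centraliser. -/
theorem Y_tor (c : Fin D.rank → Fˣ) (hc : ∀ i : Fin D.rank, (i : ℕ) ∉ J → c i = 1) :
    tor R D c ∈ rootClosure D F (QC R D J (KL.map Prod.fst)) := by
  have h1 : c = ∏ i : Fin D.rank, Pi.mulSingle i (c i) := (Finset.univ_prod_mulSingle c).symm
  let K : Subgroup (Fin D.rank → Fˣ) := (rootClosure D F (QC R D J (KL.map Prod.fst))).comap (torHom R D)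
  have h2 : c ∈ K := by
    rw [h1]
    apply Subgroup.prod_mem
    intro i _
    by_cases hi : (i : ℕ) ∈ J
    · show tor R D (Pi.mulSingle i (c i)) ∈ rootClosure D F (QC R D J (KL.map Prod.fst))
      rw [← hF.hSimple_eq_tor]
      exact Y_hG hF tab hi _
    · rw [hc i hi, Pi.mulSingle_one]
      exact Subgroup.one_mem _
  exact h2

/-- The root elements of the subsystem of `J` lie in the centraliser. -/
theorem Y_phi {r : ℕ} (h : D.InRootSub {j | j ∈ J} r) (t : F) :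
    hF.c.xG r t ∈ rootClosure D F (QC R D J (KL.map Prod.fst)) := by
  revert t
  refine hF.root_induction_J (J := {j | j ∈ J}) (P := fun r => ∀ t : F, hF.c.xG r t ∈ rootClosure D F (QC R D J (KL.map Prod.fst)))
    ?_ ?_ r h
  · intro j hjJ hj t
    exact Y_simple hF tab hjJ t
  · intro j hjJ hj s hs hP t
    have h2 := Subgroup.mul_mem _ (Subgroup.mul_mem _ (Y_nS hF (F := F) tab hjJ)
      (hP (((X.eta j s : ℤ) : F)⁻¹ * t))) (Subgroup.inv_mem _ (Y_nS hF (F := F) tab hjJ))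
    rw [hF.nS_conj_xG hj hs] at h2
    rwa [← mul_assoc, mul_inv_cancel₀ (hF.eta_ne hj hs), one_mul] at h2

/-- The closed set associated with a root of the list. -/
theorem closedA {r₀ : ℕ} (hr₀ : r₀ ∈ V) : ClosedQ R D (fun s => s ∈ A ∧ s ≠ r₀) := by
  refine ⟨fun s hs => tab.hAP s hs.1, ?_⟩
  rintro a b ⟨ha, -⟩ ⟨hb, -⟩ hne c hc
  have haN := tab.hAP a ha
  obtain ⟨h1, h2⟩ := tab.hU a (mem_range' hF tab haN.1 haN.2) b hb hne c hc
  exact ⟨h1, fun h => h2 (h ▸ hr₀)⟩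

theorem pos_norm {r₀ : ℕ} (hr₀ : r₀ ∈ V) {s : ℕ} (hs : R.N ≤ s ∧ s < D.nroots) (t : F) :
    hF.c.xG s t ∈ Subgroup.normalizer (rootClosure D F (fun s => s ∈ A ∧ s ≠ r₀) : Set (GL D.Idx F)) := by
  refine xG_mem_normalizer2 hF hs.2 _ ?_ ?_ t
  · intro q hq
    have hqN := tab.hAP q hq.1
    exact ⟨hqN.2, neg_ne_of_pos hF hs.2 hs.1 hqN.1⟩
  · intro q hq hne c hc
    obtain ⟨h1, h2⟩ := tab.hU s (mem_range' hF tab hs.1 hs.2) q hq.1 (Ne.symm hne) c hc
    exact ⟨h1, fun h => h2 (h ▸ hr₀)⟩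

theorem U_norm {r₀ : ℕ} (hr₀ : r₀ ∈ V) :
    ∀ y ∈ D.posUnipotent F, y ∈ Subgroup.normalizer (rootClosure D F (fun s => s ∈ A ∧ s ≠ r₀) : Set (GL D.Idx F)) := by
  have : D.posUnipotent F ≤ Subgroup.normalizer (rootClosure D F (fun s => s ∈ A ∧ s ≠ r₀) : Set (GL D.Idx F)) := by
    unfold ChevalleyDatum.posUnipotent
    rw [Subgroup.closure_le]
    rintro g ⟨s, t, hs, hg⟩
    rw [SetLike.mem_coe, hF.c.eq_xG hg]
    have := (hF.isPos_iff).1 hs
    exact pos_norm hF tab hr₀ ⟨this.2, this.1⟩ t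
  exact this

theorem U_coset {r₀ : ℕ} (hr₀ : r₀ ∈ V) (c : F) :
    ∀ y ∈ D.posUnipotent F, ∃ w ∈ rootClosure D F (fun s => s ∈ A ∧ s ≠ r₀), y * hF.c.xG r₀ c * y⁻¹ = hF.c.xG r₀ c * w := by
  have hr₀N := tab.hAP r₀ (tab.hVA r₀ hr₀)
  apply closure_coset (U_norm hF tab hr₀)
  rintro g ⟨s, t, hs, hg⟩
  rw [hF.c.eq_xG hg]
  obtain ⟨hs1, hs2⟩ := (hF.isPos_iff).1 hs
  by_cases hsr : s = r₀
  · subst hsr
    refine ⟨1, Subgroup.one_mem _, ?_⟩
    rw [hF.c.xG_inv, hF.c.xG_add, hF.c.xG_add, mul_one]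
    congr 1
    ring
  · have h2 := conj_odd hF (F := F) hs1 hr₀N.2 (Ne.symm hsr) (neg_ne_of_pos hF hs1 hs2 hr₀N.1) t c
    refine ⟨_, ?_, h2⟩
    apply hF.c.wordG_mem
    intro p hp
    simp only [oddW, List.mem_map] at hp
    obtain ⟨c', hc', rfl⟩ := hp
    obtain ⟨h1, h3⟩ := tab.hU s (mem_range' hF tab hs2 hs1) r₀ (tab.hVA r₀ hr₀) hsr c' hc'
    exact hF.xG_mem_rootClosure ⟨h1, fun h => h3 (h ▸ hr₀)⟩ _

/-- Words in the roots of `V`, modulo the closure. -/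
theorem word_coset {r₀ : ℕ} (hr₀ : r₀ ∈ V) (χ : ℕ → F) : ∀ L : List ℕ, L.Nodup → (∀ r ∈ L, r ∈ V) → r₀ ∈ L →
    ∃ w ∈ rootClosure D F (fun s => s ∈ A ∧ s ≠ r₀), hF.c.wordG (L.map fun r => (r, χ r)) = hF.c.xG r₀ (χ r₀) * w := by
  have hr₀N := tab.hAP r₀ (tab.hVA r₀ hr₀)
  intro L
  induction L with
  | nil =>
    intro _ _ h
    simp at h
  | cons a L ih =>
    intro hnd hL hmem
    rw [List.map_cons, Checks.wordG_cons]
    have hnd' := List.nodup_cons.1 hnd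
    by_cases har : a = r₀
    · subst har
      refine ⟨_, ?_, rfl⟩
      apply hF.c.wordG_mem
      intro p hp
      simp only [List.mem_map] at hp
      obtain ⟨r, hr, rfl⟩ := hp
      exact hF.xG_mem_rootClosure ⟨tab.hVA r (hL r (List.mem_cons_of_mem _ hr)), fun h => hnd'.1 (h ▸ hr)⟩ _
    · have h1 : r₀ ∈ L := by
        rcases List.mem_cons.1 hmem with h | h
        · exact absurd h.symm har
        · exact h
      obtain ⟨w, hw, he⟩ := ih hnd'.2 (fun r hr => hL r (List.mem_cons_of_mem _ hr)) h1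
      have h2 : hF.c.xG a (χ a) ∈ rootClosure D F (fun s => s ∈ A ∧ s ≠ r₀) :=
        hF.xG_mem_rootClosure ⟨tab.hVA a (hL a List.mem_cons_self), har⟩ _
      have h3 := (Subgroup.mem_set_normalizer_iff.1 (Subgroup.inv_mem _ (pos_norm hF tab hr₀ hr₀N (χ r₀))) _).1 h2
      rw [inv_inv] at h3
      refine ⟨_, Subgroup.mul_mem _ h3 hw, ?_⟩
      rw [he]
      group

/-- The conjugate of the involution under the torus. -/
theorem tor_word (c : Fin D.rank → Fˣ) : ∀ L : List ℕ, (∀ r ∈ L, r ∈ V) →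
    tor R D c * xL hF F L * (tor R D c)⁻¹ = hF.c.wordG (L.map fun r => (r, ((chiT D c r : Fˣ) : F))) := by
  intro L
  induction L with
  | nil =>
    intro _
    rw [xL_nil hF]
    simp [Checks.wordG_nil]
  | cons a L ih =>
    intro h
    have haN := tab.hAP a (tab.hVA a (h a List.mem_cons_self))
    rw [xL_cons hF, List.map_cons, Checks.wordG_cons, ← ih (fun r hr => h r (List.mem_cons_of_mem _ hr))]
    have h2 := hF.tor_conj_xG c haN.2 (1 : F)
    rw [mul_one] at h2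
    rw [← h2]
    group

/-- The conjugate of the involution under the Borel subgroup. -/
theorem borel_coset {r₀ : ℕ} (hr₀ : r₀ ∈ V) {u : GL D.Idx F} (hu : u ∈ D.posUnipotent F) (c : Fin D.rank → Fˣ) :
    ∃ w ∈ rootClosure D F (fun s => s ∈ A ∧ s ≠ r₀), (u * tor R D c) * xL hF F V * (u * tor R D c)⁻¹ =
      hF.c.xG r₀ ((chiT D c r₀ : Fˣ) : F) * w := by
  obtain ⟨w₁, hw₁, h1⟩ := word_coset hF tab hr₀ (fun r => ((chiT D c r : Fˣ) : F)) V tab.hVnd (fun r hr => hr) hr₀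
  obtain ⟨w₂, hw₂, h2⟩ := U_coset hF tab hr₀ ((chiT D c r₀ : Fˣ) : F) u hu
  have h3 := (Subgroup.mem_set_normalizer_iff.1 (U_norm hF tab hr₀ u hu) w₁).1 hw₁
  refine ⟨w₂ * (u * w₁ * u⁻¹), Subgroup.mul_mem _ hw₂ h3, ?_⟩
  have h4 := tor_word hF tab c V (fun r hr => hr)
  calc (u * tor R D c) * xL hF F V * (u * tor R D c)⁻¹ = u * (tor R D c * xL hF F V * (tor R D c)⁻¹) * u⁻¹ := by group
    _ = u * hF.c.xG r₀ ((chiT D c r₀ : Fˣ) : F) * u⁻¹ * (u * w₁ * u⁻¹) := by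
      rw [h4, h1]
      group
    _ = _ := by
      rw [h2]
      group

/-- The level constraints on the images of the roots. -/
theorem rho_levels (nn : ↥(D.monomialSubgroup F)) {b₁ b₂ : GL D.Idx F} (hb₁ : b₁ ∈ D.borelSubgroup F) (hb₂ : b₂ ∈ D.borelSubgroup F)
    (he : nn.1 * (b₁ * xL hF F V * b₁⁻¹) * nn.1⁻¹ = b₂ * xL hF F V * b₂⁻¹) :
    ∀ x ∈ V.map (appP (hF.rhoN F nn)), ∀ q ∈ Fn, (q.2 : ℤ) + 1 ≤ linL R D q.1 x := by
  intro x hx q hq
  obtain ⟨r₀, hr₀, rfl⟩ := List.mem_map.1 hx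
  have hr₀N := tab.hAP r₀ (tab.hVA r₀ hr₀)
  obtain ⟨u₁, hu₁, h₁, hh₁, rfl⟩ := (hF.mem_borel_iff).1 hb₁
  obtain ⟨c₁, rfl⟩ := (hF.mem_diagonal_iff).1 hh₁
  obtain ⟨u₂, hu₂, h₂, hh₂, rfl⟩ := (hF.mem_borel_iff).1 hb₂
  obtain ⟨c₂, rfl⟩ := (hF.mem_diagonal_iff).1 hh₂
  obtain ⟨w₁, hw₁, e₁⟩ := borel_coset hF tab hr₀ hu₁ c₁
  obtain ⟨w₂, hw₂, e₂⟩ := borel_coset hF tab hr₀ hu₂ c₂
  rw [e₁, e₂] at he
  obtain ⟨p, hp, hpr⟩ := List.mem_map.1 (tab.hBV r₀ hr₀)
  subst hpr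
  obtain ⟨hb0, hb⟩ := tab.hBn p hp
  rw [appP_of_lt _ hr₀N.2, linL_eq]
  rw [linL_eq] at hb0
  have hy : nn.1 * (hF.c.xG p.1 ((chiT D c₁ p.1 : Fˣ) : F) * w₁) * nn.1⁻¹ ∈ rootClosure D F (fun s => s ∈ A) := by
    rw [he]
    have hle : rootClosure D F (fun s => s ∈ A ∧ s ≠ p.1) ≤ rootClosure D F (fun s => s ∈ A) :=
      rootClosure_mono (fun s hs => hs.1)
    exact Subgroup.mul_mem _ (hF.xG_mem_rootClosure (tab.hVA _ hr₀) _) (hle hw₂)
  exact level_main hF hr₀N.2 (fun s hs => (tab.hAP s hs).2) nn (Units.ne_zero _) hw₁ hy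
    (fun s hs => by
      have := tab.hFn q hq s hs
      rwa [linL_eq] at this) hb0
    (fun s hs hne => by
      have := hb s hs hne
      rwa [linL_eq, linL_eq] at this)

/-- The images of the fundamental roots under the stabiliser. -/
theorem neg_of_fix {σ : Perm (Fin D.nroots)} (hσ : σ ∈ hF.Wk Set.univ) (hfix : ∀ r ∈ V, appP σ r = r) (i : ℕ) (hi : i < D.rank) (hiJ : i ∉ J) :
    R.N ≤ appP σ (D.simple i) := by
  have hVn : ∀ r ∈ V, r < D.nroots := fun r hr => (tab.hAP r (tab.hVA r hr)).2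
  have hSm : ∀ r ∈ (List.range D.rank).map D.simple, r < D.nroots := by
    intro r hr
    obtain ⟨j, hj, rfl⟩ := List.mem_map.1 hr
    exact hF.simple_lt (List.mem_range.1 hj)
  have h1 := tab_mem hF hVn hSm tab.hOm0 tab.hOm1 hσ
  have h2 : V.map (appP σ) = V := by
    conv_rhs => rw [← List.map_id V]
    exact List.map_congr_left hfix
  have h3 := tab.hneg _ h1 h2 i hi hiJ
  have h4 : ((((List.range D.rank).map D.simple).map (appP σ)).getD i 0) = appP σ (D.simple i) := by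
    simp [List.getD, hi]
  simp only at h3
  rwa [h4] at h3

/-- The main theorem, from the table conditions. -/
theorem cent_eq : D.group F ⊓ Subgroup.centralizer {xL hF F V} = rootClosure D F (QC R D J (KL.map Prod.fst)) := by
  have hVn : ∀ r ∈ V, r < D.nroots := fun r hr => (tab.hAP r (tab.hVA r hr)).2
  have hSm : ∀ r ∈ (List.range D.rank).map D.simple, r < D.nroots := by
    intro r hr
    obtain ⟨j, hj, rfl⟩ := List.mem_map.1 hr
    exact hF.simple_lt (List.mem_range.1 hj)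
  have hVp : ∀ r ∈ V, R.N ≤ r ∧ r < D.nroots := fun r hr => tab.hAP r (tab.hVA r hr)
  apply le_antisymm
  · rintro g ⟨hg, hgc⟩
    have hgc' := Subgroup.mem_centralizer_iff.1 hgc _ (Set.mem_singleton _)
    have hgv : g * xL hF F V * g⁻¹ = xL hF F V := by
      rw [← hgc']
      group
    obtain ⟨n, hn, hg'⟩ := Cfsg.Agent.Lib.BNPair.exists_mem_dc (P := hF.bnPair F) (⟨g, hg⟩ : ↥(D.group F))
    obtain ⟨b, hb, b', hb', e⟩ := Cfsg.Agent.Lib.BNPair.mem_dc.1 hg'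
    have hb1 : b.1 ∈ D.borelSubgroup F := Subgroup.mem_subgroupOf.1 hb
    have hb2 : b'.1 ∈ D.borelSubgroup F := Subgroup.mem_subgroupOf.1 hb'
    have hn1 : n.1 ∈ D.monomialSubgroup F := Subgroup.mem_subgroupOf.1 hn
    have e' : g = b.1 * n.1 * b'.1 := congrArg Subtype.val e
    set nn : ↥(D.monomialSubgroup F) := ⟨n.1, hn1⟩ with hnn
    have hconj : nn.1 * (b'.1 * xL hF F V * b'.1⁻¹) * nn.1⁻¹ = b.1⁻¹ * xL hF F V * b.1⁻¹⁻¹ := by
      have h3 : b.1 * n.1 * b'.1 * xL hF F V * (b.1 * n.1 * b'.1)⁻¹ = xL hF F V := by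
        rw [← e']
        exact hgv
      show n.1 * (b'.1 * xL hF F V * b'.1⁻¹) * n.1⁻¹ = _
      calc n.1 * (b'.1 * xL hF F V * b'.1⁻¹) * n.1⁻¹
          = b.1⁻¹ * (b.1 * n.1 * b'.1 * xL hF F V * (b.1 * n.1 * b'.1)⁻¹) * b.1 := by group
        _ = _ := by
          rw [h3]
          group
    have hlev := rho_levels hF tab nn hb2 (Subgroup.inv_mem _ hb1) hconj
    have hOm := tab_mem hF hVn hSm tab.hOm0 tab.hOm1 (hF.rhoN_mem_Wk (F := F) nn)
    have hfix0 := tab.hfix _ hOm hlev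
    have hfix : ∀ r ∈ V, appP (hF.rhoN F nn) r = r := fun r hr => map_eq_self' hfix0 r hr
    have hnP : n.1 ∈ D.parabolicSubgroup F {j | j ∈ J} :=
      stab_parabolic hF hVn (fun j hj => ⟨(tab.hJ j hj).1, tab.hwf j hj⟩)
        (fun σ hσ h i hi hiJ => neg_of_fix hF tab hσ h i hi hiJ) _ nn rfl hfix
    have hgP : g ∈ D.parabolicSubgroup F {j | j ∈ J} := by
      rw [e']
      exact Subgroup.mul_mem _ (Subgroup.mul_mem _ (hF.borel_le_parabolic _ hb1) hnP) (hF.borel_le_parabolic _ hb2)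
    rw [← hF.radical_sup_levi] at hgP
    have hLN : D.leviSubgroup F {j | j ∈ J} ≤ Subgroup.normalizer (D.unipotentRadical F {j | j ∈ J} : Set (GL D.Idx F)) :=
      le_trans (by rw [← hF.radical_sup_levi]; exact le_sup_right) (hF.parabolic_le_normalizer _)
    obtain ⟨m, hm, lam, hlam, hgdec⟩ := (GroupLem.mem_sup_iff_of_le_normalizer hLN).1 hgP
    have hlam' : lam ∈ rootClosure D F (D.InRootSub {j | j ∈ J}) ⊔ D.diagonalSubgroup F := by
      rw [sup_comm]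
      exact hlam
    obtain ⟨l, hl, h₀, hh₀, hlamdec⟩ := (GroupLem.mem_sup_iff_of_le_normalizer
      (diagonal_le_normalizer_rootClosure hF (fun s hs => hs.1))).1 hlam'
    obtain ⟨c, rfl⟩ := (hF.mem_diagonal_iff).1 hh₀
    have hlY : l ∈ rootClosure D F (QC R D J (KL.map Prod.fst)) := by
      have hle : rootClosure D F (D.InRootSub {j | j ∈ J}) ≤ rootClosure D F (QC R D J (KL.map Prod.fst)) := by
        unfold rootClosure
        rw [Subgroup.closure_le]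
        rintro g ⟨s, t, hs, hg⟩
        rw [SetLike.mem_coe, hF.c.eq_xG hg]
        exact Y_phi hF tab hs t
      exact hle hl
    have hmU : m ∈ D.posUnipotent F := hF.radical_le_U _ hm
    set vτ := hF.c.wordG (V.map fun r => (r, ((chiT D c r : Fˣ) : F))) with hvτ
    have htw := tor_word hF tab c V (fun r hr => hr)
    rw [← hvτ] at htw
    have hlc : l * vτ = vτ * l := Y_comm_list hF tab hlY _ V (fun r hr => hr)
    have hmv : m * vτ * m⁻¹ = xL hF F V := by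
      have h3 := hgv
      rw [hgdec, hlamdec] at h3
      rw [← h3, ← htw]
      have h4 : l * (tor R D c * xL hF F V * (tor R D c)⁻¹) * l⁻¹ = tor R D c * xL hF F V * (tor R D c)⁻¹ := by
        rw [htw, hlc]
        group
      calc m * (tor R D c * xL hF F V * (tor R D c)⁻¹) * m⁻¹
          = m * (l * (tor R D c * xL hF F V * (tor R D c)⁻¹) * l⁻¹) * m⁻¹ := by rw [h4]
        _ = _ := by group
    -- the torus coordinates
    have hchi : ∀ r ∈ V, chiT D c r = 1 := by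
      intro r₀ hr₀
      have hr₀N := hVp r₀ hr₀
      obtain ⟨w₁, hw₁, h1⟩ := word_coset hF tab hr₀ (fun r => ((chiT D c r : Fˣ) : F)) V tab.hVnd (fun r hr => hr) hr₀
      obtain ⟨w₂, hw₂, h2⟩ := U_coset hF tab hr₀ ((chiT D c r₀ : Fˣ) : F) m hmU
      have h3 := (Subgroup.mem_set_normalizer_iff.1 (U_norm hF tab hr₀ m hmU) w₁).1 hw₁
      obtain ⟨w₃, hw₃, h4⟩ := word_coset hF tab hr₀ (fun r => (1 : F)) V tab.hVnd (fun r hr => hr) hr₀
      have h5 : xL hF F V = hF.c.xG r₀ 1 * w₃ := h4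
      have h6 : hF.c.xG r₀ ((chiT D c r₀ : Fˣ) : F) * (w₂ * (m * w₁ * m⁻¹)) = hF.c.xG r₀ 1 * w₃ := by
        rw [← h5, ← hmv, hvτ, h1]
        calc hF.c.xG r₀ ((chiT D c r₀ : Fˣ) : F) * (w₂ * (m * w₁ * m⁻¹))
            = (hF.c.xG r₀ ((chiT D c r₀ : Fˣ) : F) * w₂) * (m * w₁ * m⁻¹) := by group
          _ = _ := by
            rw [← h2]
            group
      have h7 : hF.c.xG r₀ (-1 + ((chiT D c r₀ : Fˣ) : F)) = w₃ * (w₂ * (m * w₁ * m⁻¹))⁻¹ := by
        have h8 : hF.c.xG r₀ (-1 + ((chiT D c r₀ : Fˣ) : F)) = (hF.c.xG r₀ 1)⁻¹ * hF.c.xG r₀ ((chiT D c r₀ : Fˣ) : F) := by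
          rw [hF.c.xG_inv, hF.c.xG_add]
        rw [h8]
        calc (hF.c.xG r₀ 1)⁻¹ * hF.c.xG r₀ ((chiT D c r₀ : Fˣ) : F)
            = (hF.c.xG r₀ 1)⁻¹ * (hF.c.xG r₀ ((chiT D c r₀ : Fˣ) : F) * (w₂ * (m * w₁ * m⁻¹))) * (w₂ * (m * w₁ * m⁻¹))⁻¹ := by group
          _ = (hF.c.xG r₀ 1)⁻¹ * (hF.c.xG r₀ 1 * w₃) * (w₂ * (m * w₁ * m⁻¹))⁻¹ := by rw [h6]
          _ = _ := by group
      have h9 : hF.c.xG r₀ (-1 + ((chiT D c r₀ : Fˣ) : F)) ∈ rootClosure D F (fun s => s ∈ A ∧ s ≠ r₀) := by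
        rw [h7]
        exact Subgroup.mul_mem _ hw₃ (Subgroup.inv_mem _ (Subgroup.mul_mem _ hw₂ h3))
      have h10 := xG_not_mem_closed hF (closedA hF tab hr₀) hr₀N.1 hr₀N.2 (fun h => h.2 rfl) h9
      apply Units.ext
      rw [Units.val_one]
      linear_combination h10
    have hcJ := c_of_chi hF tab c hchi
    have hvτv : vτ = xL hF F V := by
      rw [hvτ]
      unfold xL
      congr 1
      apply List.map_congr_left
      intro r hr
      rw [hchi r hr, Units.val_one]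
    rw [hvτv] at hmv
    obtain ⟨σ, hσ⟩ := hF.exists_ordW (D.nroots - R.N) R.N (by have := tab.hN; omega) le_rfl m (by rw [← hF.U_eq_Uk]; exact hmU)
    have hz : xL hF F V * hF.ordW R.N σ * (xL hF F V)⁻¹ = hF.ordW R.N σ := by
      rw [← hσ]
      have : xL hF F V * m * (xL hF F V)⁻¹ = (m * xL hF F V * m⁻¹) * m * (xL hF F V)⁻¹ := by rw [hmv]
      rw [this]
      group
    have hk := kill_all hF tab.hVnd hVp KL [] tab.hkill σ (fun q _ _ _ => by simp) hz
    have hmY : m ∈ rootClosure D F (QC R D J (KL.map Prod.fst)) := by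
      rw [hσ]
      apply ordW_mem_closure hF
      intro r h1 h2 h3
      refine Or.inl ⟨⟨h1, h2⟩, ?_⟩
      intro h4
      obtain ⟨p, hp, hpr⟩ := List.mem_map.1 h4
      apply h3
      rw [← hpr]
      exact hk p hp
    rw [hgdec, hlamdec]
    exact Subgroup.mul_mem _ hmY (Subgroup.mul_mem _ hlY (Y_tor hF tab c hcJ))
  · intro y hy
    refine ⟨rootClosure_le_group hF (fun r hr => QC_lt hF tab hr) hy, Subgroup.mem_centralizer_iff.2 ?_⟩
    intro h hh
    rw [Set.mem_singleton_iff] at hh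
    subst hh
    exact (Y_comm_list hF tab hy (fun _ => 1) V (fun r hr => hr)).symm

end main

end Cfsg.Agent.Lib.ChevInv.CentG
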