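import Mathlib
import Cfsg.Agent.Lib.ChevInv.CentG3
import Cfsg.Agent.Lib.Chev.RelG2
import Cfsg.Agent.Lib.Chev.RootG2

/-!
# Tables for centralisers of involutions in type G2
-/

set_option autoImplicit false
set_option maxRecDepth 100000

namespace Cfsg.Agent.Lib.ChevInv.CentG.TabG2

open Cfsg Cfsg.Lie Matrix Cfsg.Agent.Lib.Chev Cfsg.Agent.Lib.ChevInv Cfsg.Agent.Lib.ChevInv.CentG
open Cfsg.Agent.Lib.Chev.TabG2 Cfsg.Agent.Lib.Chev.RootG2T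

theorem hF : Full T X R chevG2 := ⟨RelG2.checks, RootG2.checks⟩

def Va : List ℕ := [11]
def Aa : List ℕ := [11]
def Ja : List ℕ := [0]
def KLa : List (ℕ × ℕ × ℕ) := []
def Fna : List (List ℤ × ℕ) := [([0, 1], 1)]
def Bna : List (ℕ × List ℤ) := [(11, [0, 1])]
def duala : List (ℕ × List (ℕ × ℤ)) := [(1, [(11, 1)])]
def OmBa : List (List (List ℕ × List ℕ)) := [
  [],
  [],
  [([6], [2, 11]), ([5], [2, 10])],
  [([10], [3, 11]), ([1], [3, 6])],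
  [([11], [4, 10]), ([0], [4, 5])],
  [],
  [],
  [([11], [7, 6]), ([0], [7, 1])],
  [([10], [8, 5]), ([1], [8, 0])],
  [([6], [9, 1]), ([5], [9, 0])],
  [],
  []
]
abbrev Oma : List (List ℕ × List ℕ) := OmBa.flatten

theorem a_hN : R.N ≤ chevG2.nroots := by decide +kernel
theorem a_hVnd : Va.Nodup := by decide +kernel
theorem a_hVA : ∀ r ∈ Va, r ∈ Aa := by decide +kernel
theorem a_hAP : ∀ r ∈ Aa, R.N ≤ r ∧ r < chevG2.nroots := by decide +kernel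
theorem a_hJ : ∀ j ∈ Ja, j < chevG2.rank ∧ chevG2.simple j ∉ KLa.map Prod.fst := by decide +kernel
theorem a_hU : ∀ s ∈ List.range' R.N (chevG2.nroots - R.N), ∀ a ∈ Aa, s ≠ a → ∀ c ∈ oddT chevG2 s a, c.1 ∈ Aa ∧ c.1 ∉ Va := by decide +kernel
theorem a_hYP : ∀ q ∈ List.range' R.N (chevG2.nroots - R.N), q ∉ KLa.map Prod.fst → ∀ r ∈ Va, q ≠ r → oddT chevG2 q r = [] := by decide +kernel
theorem a_hYN : ∀ j ∈ Ja, ∀ r ∈ Va, r ≠ chevG2.neg (chevG2.simple j) ∧ r ≠ chevG2.neg (chevG2.neg (chevG2.simple j)) ∧ oddT chevG2 (chevG2.neg (chevG2.simple j)) r = [] := by decide +kernel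
theorem a_hwf : ∀ j ∈ Ja, ∀ r ∈ Va, X.wf j r = r := by decide +kernel
theorem a_hFn : ∀ p ∈ Fna, ∀ s ∈ Aa, (p.2 : ℤ) + 1 ≤ linL R chevG2 p.1 s := by decide +kernel
theorem a_hBn : ∀ p ∈ Bna, 0 < linL R chevG2 p.2 p.1 ∧ ∀ s ∈ Aa, s ≠ p.1 → linL R chevG2 p.2 p.1 < linL R chevG2 p.2 s := by decide +kernel
theorem a_hBV : ∀ r ∈ Va, r ∈ Bna.map Prod.fst := by decide +kernel
theorem a_hOm0 : (Va, (List.range chevG2.rank).map chevG2.simple) ∈ Oma := by decide +kernel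
theorem a_hOm1B : omClosedB X chevG2.rank OmBa = true := by decide +kernel
theorem a_hOm1 : ∀ p ∈ Oma, ∀ i < chevG2.rank, (p.1.map (X.wf i), p.2.map (X.wf i)) ∈ Oma := omClosed_of_B a_hOm1B
theorem a_hfix : ∀ p ∈ Oma, (∀ x ∈ p.1, ∀ q ∈ Fna, (q.2 : ℤ) + 1 ≤ linL R chevG2 q.1 x) → p.1 = Va := by decide +kernel
theorem a_hneg : ∀ p ∈ Oma, p.1 = Va → ∀ i < chevG2.rank, i ∉ Ja → R.N ≤ p.2.getD i 0 := by decide +kernel
theorem a_hdual : ∀ e ∈ duala, (∀ p ∈ e.2, p.1 ∈ Va) ∧ ∀ i' < chevG2.rank, (e.2.map fun p => p.2 * chevG2.cartan i' p.1).sum = if i' = e.1 then 1 else 0 := by decide +kernel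
theorem a_hdual2 : ∀ i < chevG2.rank, i ∉ Ja → i ∈ duala.map Prod.fst := by decide +kernel
theorem a_hkill : KillOK R chevG2 Va [] KLa := trivial

theorem taba : CentTab R chevG2 X Va Aa Ja KLa Fna Bna Oma duala where
  hN := a_hN
  hVnd := a_hVnd
  hVA := a_hVA
  hAP := a_hAP
  hJ := a_hJ
  hU := a_hU
  hYP := a_hYP
  hYN := a_hYN
  hwf := a_hwf
  hFn := a_hFn
  hBn := a_hBn
  hBV := a_hBV
  hOm0 := a_hOm0
  hOm1 := a_hOm1
  hfix := a_hfix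
  hneg := a_hneg
  hdual := a_hdual
  hdual2 := a_hdual2
  hkill := a_hkill

def Vb : List ℕ := [9]
def Ab : List ℕ := [9, 10, 11]
def Jb : List ℕ := [1]
def KLb : List (ℕ × ℕ × ℕ) := [(7, 10, 9), (8, 11, 9)]
def Fnb : List (List ℤ × ℕ) := [([1, 0], 1)]
def Bnb : List (ℕ × List ℤ) := [(9, [1, 0])]
def dualb : List (ℕ × List (ℕ × ℤ)) := [(0, [(9, 1)])]
def OmBb : List (List (List ℕ × List ℕ)) := [
  [],
  [],
  [([4], [2, 11]), ([3], [2, 10])],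
  [([7], [3, 11]), ([2], [3, 6])],
  [([8], [4, 10]), ([2], [4, 5])],
  [],
  [],
  [([9], [7, 6]), ([3], [7, 1])],
  [([9], [8, 5]), ([4], [8, 0])],
  [([8], [9, 1]), ([7], [9, 0])],
  [],
  []
]
abbrev Omb : List (List ℕ × List ℕ) := OmBb.flatten

theorem b_hN : R.N ≤ chevG2.nroots := by decide +kernel
theorem b_hVnd : Vb.Nodup := by decide +kernel
theorem b_hVA : ∀ r ∈ Vb, r ∈ Ab := by decide +kernel
theorem b_hAP : ∀ r ∈ Ab, R.N ≤ r ∧ r < chevG2.nroots := by decide +kernel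
theorem b_hJ : ∀ j ∈ Jb, j < chevG2.rank ∧ chevG2.simple j ∉ KLb.map Prod.fst := by decide +kernel
theorem b_hU : ∀ s ∈ List.range' R.N (chevG2.nroots - R.N), ∀ a ∈ Ab, s ≠ a → ∀ c ∈ oddT chevG2 s a, c.1 ∈ Ab ∧ c.1 ∉ Vb := by decide +kernel
theorem b_hYP : ∀ q ∈ List.range' R.N (chevG2.nroots - R.N), q ∉ KLb.map Prod.fst → ∀ r ∈ Vb, q ≠ r → oddT chevG2 q r = [] := by decide +kernel
theorem b_hYN : ∀ j ∈ Jb, ∀ r ∈ Vb, r ≠ chevG2.neg (chevG2.simple j) ∧ r ≠ chevG2.neg (chevG2.neg (chevG2.simple j)) ∧ oddT chevG2 (chevG2.neg (chevG2.simple j)) r = [] := by decide +kernel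
theorem b_hwf : ∀ j ∈ Jb, ∀ r ∈ Vb, X.wf j r = r := by decide +kernel
theorem b_hFn : ∀ p ∈ Fnb, ∀ s ∈ Ab, (p.2 : ℤ) + 1 ≤ linL R chevG2 p.1 s := by decide +kernel
theorem b_hBn : ∀ p ∈ Bnb, 0 < linL R chevG2 p.2 p.1 ∧ ∀ s ∈ Ab, s ≠ p.1 → linL R chevG2 p.2 p.1 < linL R chevG2 p.2 s := by decide +kernel
theorem b_hBV : ∀ r ∈ Vb, r ∈ Bnb.map Prod.fst := by decide +kernel
theorem b_hOm0 : (Vb, (List.range chevG2.rank).map chevG2.simple) ∈ Omb := by decide +kernel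
theorem b_hOm1B : omClosedB X chevG2.rank OmBb = true := by decide +kernel
theorem b_hOm1 : ∀ p ∈ Omb, ∀ i < chevG2.rank, (p.1.map (X.wf i), p.2.map (X.wf i)) ∈ Omb := omClosed_of_B b_hOm1B
theorem b_hfix : ∀ p ∈ Omb, (∀ x ∈ p.1, ∀ q ∈ Fnb, (q.2 : ℤ) + 1 ≤ linL R chevG2 q.1 x) → p.1 = Vb := by decide +kernel
theorem b_hneg : ∀ p ∈ Omb, p.1 = Vb → ∀ i < chevG2.rank, i ∉ Jb → R.N ≤ p.2.getD i 0 := by decide +kernel
theorem b_hdual : ∀ e ∈ dualb, (∀ p ∈ e.2, p.1 ∈ Vb) ∧ ∀ i' < chevG2.rank, (e.2.map fun p => p.2 * chevG2.cartan i' p.1).sum = if i' = e.1 then 1 else 0 := by decide +kernel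
theorem b_hdual2 : ∀ i < chevG2.rank, i ∉ Jb → i ∈ dualb.map Prod.fst := by decide +kernel
theorem b_hkill : KillOK R chevG2 Vb [] KLb := ⟨by decide +kernel, ⟨by decide +kernel, trivial⟩⟩

theorem tabb : CentTab R chevG2 X Vb Ab Jb KLb Fnb Bnb Omb dualb where
  hN := b_hN
  hVnd := b_hVnd
  hVA := b_hVA
  hAP := b_hAP
  hJ := b_hJ
  hU := b_hU
  hYP := b_hYP
  hYN := b_hYN
  hwf := b_hwf
  hFn := b_hFn
  hBn := b_hBn
  hBV := b_hBV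
  hOm0 := b_hOm0
  hOm1 := b_hOm1
  hfix := b_hfix
  hneg := b_hneg
  hdual := b_hdual
  hdual2 := b_hdual2
  hkill := b_hkill

end Cfsg.Agent.Lib.ChevInv.CentG.TabG2
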